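import Mathlib

set_option autoImplicit false

namespace H97.ONT

open Subgroup

theorem orb {G : Type*} [Group G] [Finite G] {Γ P P' A T T' : Subgroup G} (hP : P ≤ Γ)
    (hP' : P' ≤ Γ) (odd : Odd (P.relIndex Γ)) (hA : ∀ a ∈ A, a * a = 1) (hT : T ≤ A)
    (hT' : T' ≤ A) (hsup : ∀ a ∈ A, ∃ t ∈ T, ∃ t' ∈ T', a = t * t') (hne : ¬ T ≤ T')
    (hne' : ¬ T' ≤ T) (nA : ∀ g ∈ P, ∀ a ∈ A, g * a * g⁻¹ ∈ A)
    (nA' : ∀ g ∈ P', ∀ a ∈ A, g * a * g⁻¹ ∈ A) (cT : ∀ g ∈ P, ∀ t ∈ T, g * t = t * g)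
    (cT' : ∀ g ∈ P', ∀ t ∈ T', g * t = t * g)
    (tr : ∀ a ∈ A, a ∉ T → ∀ t ∈ T, ∃ g ∈ P, g * a * g⁻¹ = a * t)
    (tr' : ∀ a ∈ A, a ∉ T' → ∀ t ∈ T', ∃ g ∈ P', g * a * g⁻¹ = a * t) : T ⊓ T' = ⊥ := by
  classical
  have cm : ∀ a ∈ A, ∀ b ∈ A, a * b = b * a := fun a ha b hb => by
    have h := inv_eq_of_mul_eq_one_right (hA _ (mul_mem ha hb))
    rw [mul_inv_rev, inv_eq_of_mul_eq_one_right (hA _ ha),
      inv_eq_of_mul_eq_one_right (hA _ hb)] at h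
    exact h.symm
  set L : Subgroup G := Γ ⊓ normalizer (A : Set G) ⊓ centralizer ((T ⊓ T' : Subgroup G) : Set G)
    with hL
  have PL : P ≤ L := fun g hg =>
    ⟨⟨hP hg, mem_normalizer_fintype (nA g hg)⟩, fun t ht => (cT g hg t ht.1).symm⟩
  have PL' : P' ≤ L := fun g hg =>
    ⟨⟨hP' hg, mem_normalizer_fintype (nA' g hg)⟩, fun t ht => (cT' g hg t ht.2).symm⟩
  obtain ⟨t, ht, t1⟩ := SetLike.not_le_iff_exists.1 hne
  obtain ⟨t', ht', t1'⟩ := SetLike.not_le_iff_exists.1 hne'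
  have k1 : ∀ a ∈ A, a ∉ T → ∃ g ∈ L, g * a * g⁻¹ = t := by
    intro a ha a1
    obtain ⟨u, hu, u', hu', rfl⟩ := hsup a ha
    obtain ⟨g, hg, e⟩ := tr _ ha a1 (u⁻¹ * t) (mul_mem (inv_mem hu) ht)
    have e1 : u * u' * (u⁻¹ * t) = t * u' := by
      rw [cm u (hT hu) u' (hT' hu'), cm t (hT ht) u' (hT' hu')]; group
    obtain ⟨g', hg', e'⟩ := tr' (t * u') (mul_mem (hT ht) (hT' hu'))
      (fun h => t1 ((Subgroup.mul_mem_cancel_right _ hu').1 h)) u'⁻¹ (inv_mem hu')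
    refine ⟨g' * g, mul_mem (PL' hg') (PL hg), ?_⟩
    calc g' * g * (u * u') * (g' * g)⁻¹ = g' * (g * (u * u') * g⁻¹) * g'⁻¹ := by group
      _ = t := by rw [e, e1, e']; group
  have k2 : ∀ a ∈ A, a ∉ T ⊓ T' → ∃ g ∈ L, g * a * g⁻¹ = t := by
    intro a ha a1
    by_cases a2 : a ∈ T
    · obtain ⟨g, hg, e⟩ := tr' a ha (fun h => a1 ⟨a2, h⟩) t' ht'
      obtain ⟨g', hg', e'⟩ := k1 (a * t') (mul_mem ha (hT' ht'))
        fun h => t1' ((Subgroup.mul_mem_cancel_left _ a2).1 h)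
      refine ⟨g' * g, mul_mem hg' (PL' hg), ?_⟩
      calc g' * g * a * (g' * g)⁻¹ = g' * (g * a * g⁻¹) * g'⁻¹ := by group
        _ = t := by rw [e, e']
    · exact k1 a ha a2
  letI : MulAction L G := MulAction.compHom G (MulAut.conj.comp L.subtype)
  have sm : ∀ (g : L) (x : G), g • x = g * x * (g : G)⁻¹ := fun g x => rfl
  have horb : MulAction.orbit L t = (A : Set G) \ (T ⊓ T' : Subgroup G) := by
    ext a
    constructor
    · rintro ⟨g, rfl⟩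
      refine ⟨(mem_normalizer_iff.1 g.2.1.2 t).1 (hT ht), fun h => t1 ?_⟩
      have h1 : (g : G) * t * (g : G)⁻¹ ∈ T ⊓ T' := h
      have h2 := g.2.2 _ h1
      have h3 : (g : G) * t * (g : G)⁻¹ = t := by
        have : (g : G) * t = g * (g * t * (g : G)⁻¹) := by rw [← h2]; group
        exact (mul_left_cancel this).symm
      exact h3 ▸ h1.2
    · rintro ⟨ha, a1⟩
      obtain ⟨g, hg, e⟩ := k2 a ha a1
      refine ⟨⟨g⁻¹, inv_mem hg⟩, ?_⟩
      change g⁻¹ * t * g⁻¹⁻¹ = a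
      rw [← e]; group
  have hst : P.subgroupOf L ≤ MulAction.stabilizer L t := fun g hg => by
    rw [MulAction.mem_stabilizer_iff, sm, cT g hg t ht, mul_inv_cancel_right]
  have hodd : Odd ((A : Set G) \ (T ⊓ T' : Subgroup G)).ncard := by
    rw [← horb, ← MulAction.index_stabilizer]
    refine Odd.of_dvd_nat odd ((index_dvd_of_le hst).trans ?_)
    exact Dvd.intro _ (relIndex_mul_relIndex P L Γ PL (inf_le_left.trans inf_le_left))
  have ev : ∀ B : Subgroup G, B ≤ A → B ≠ ⊥ → Even (B : Set G).ncard := by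
    intro B hB hb
    obtain ⟨⟨b, hb⟩, b1⟩ := ne_bot_iff_exists_ne_one.1 hb
    have ho : orderOf (⟨b, hb⟩ : B) = 2 :=
      orderOf_eq_prime (Subtype.ext (by rw [pow_two]; exact hA b (hB hb))) b1
    have := orderOf_dvd_natCard (⟨b, hb⟩ : B)
    rw [ho] at this
    exact even_iff_two_dvd.2 this
  by_contra hI
  have e1 := ev _ (inf_le_left.trans hT) hI
  have e2 := ev A le_rfl fun h => t1 (by
    have : t = 1 := by simpa [h] using hT ht
    rw [this]; exact one_mem _)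
  have e3 := Set.ncard_diff_add_ncard_of_subset
    (show ((T ⊓ T' : Subgroup G) : Set G) ⊆ A from inf_le_left.trans hT)
  rw [← e3] at e2
  exact (Nat.not_even_iff_odd.2 hodd) ((Nat.even_add.1 e2).2 e1)

end H97.ONT
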