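import Mathlib
import Cfsg.Agent.Lib.Core.CoprimeAbelian

set_option autoImplicit false
set_option linter.unusedVariables false

namespace H97.ONT

open Subgroup

namespace Sw

variable {G : Type*} [Group G] {p : ℕ} {h k : G}

theorem root (hp : p.Prime) {u : G} (hu : u ^ p = 1) {a : ℤ} (ha : u ^ a ≠ 1) :
    u ∈ zpowers (u ^ a) := by
  have hd : ¬ (p : ℤ) ∣ a := fun ⟨c, hc⟩ => ha (by rw [hc, zpow_mul, zpow_natCast, hu, one_zpow])
  obtain ⟨x, y, e⟩ := ((Nat.prime_iff_prime_int.1 hp).coprime_iff_not_dvd).2 hd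
  refine ⟨y, ?_⟩
  show (u ^ a) ^ y = u
  conv_rhs => rw [← zpow_one u, ← e, zpow_add, mul_comm x, zpow_mul, zpow_natCast, hu, one_zpow,
    one_mul, mul_comm y, zpow_mul]

theorem mem_E (hc : h * k = k * h) {e : G} :
    e ∈ zpowers h ⊔ zpowers k ↔ ∃ a b : ℤ, e = h ^ a * k ^ b := by
  refine ⟨fun he => ?_, fun ⟨a, b, e1⟩ => e1 ▸ mul_mem (mem_sup_left (zpow_mem_zpowers h a))
    (mem_sup_right (zpow_mem_zpowers k b))⟩
  have hn : zpowers h ≤ normalizer (zpowers k : Set G) := le_trans (zpowers_le.2 (by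
    rintro _ ⟨b, rfl⟩
    exact ((Commute.zpow_right hc b).symm :))) (centralizer_le_normalizer _)
  rw [← SetLike.mem_coe, coe_mul_of_left_le_normalizer_right _ _ hn] at he
  obtain ⟨_, ⟨a, rfl⟩, _, ⟨b, rfl⟩, rfl⟩ := he
  exact ⟨a, b, rfl⟩

theorem comm_E (hc : h * k = k * h) {e e' : G} (he : e ∈ zpowers h ⊔ zpowers k)
    (he' : e' ∈ zpowers h ⊔ zpowers k) : e * e' = e' * e := by
  obtain ⟨a, b, rfl⟩ := (mem_E hc).1 he
  obtain ⟨a', b', rfl⟩ := (mem_E hc).1 he'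
  have c : Commute h k := hc
  exact (((Commute.refl h).zpow_zpow a a').mul_right (c.zpow_zpow a b')).mul_left
    ((c.symm.zpow_zpow b a').mul_right ((Commute.refl k).zpow_zpow b b'))

theorem isComm_E (hc : h * k = k * h) : IsMulCommutative (zpowers h ⊔ zpowers k : Subgroup G) :=
  ⟨⟨fun a b => Subtype.ext (comm_E hc a.2 b.2)⟩⟩

theorem pow_E (oh : h ^ p = 1) (ok : k ^ p = 1) (hc : h * k = k * h) {e : G}
    (he : e ∈ zpowers h ⊔ zpowers k) : e ^ p = 1 := by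
  obtain ⟨a, b, rfl⟩ := (mem_E hc).1 he
  rw [((show Commute h k from hc).zpow_zpow a b).mul_pow, ← zpow_natCast, ← zpow_natCast,
    ← zpow_mul, ← zpow_mul, mul_comm a, mul_comm b, zpow_mul, zpow_mul, zpow_natCast, zpow_natCast,
    oh, ok, one_zpow, one_zpow, one_mul]

theorem isP_E (oh : h ^ p = 1) (ok : k ^ p = 1) (hc : h * k = k * h) :
    IsPGroup p (zpowers h ⊔ zpowers k : Subgroup G) :=
  fun e => ⟨1, Subtype.ext (by rw [pow_one]; exact pow_E oh ok hc e.2)⟩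

theorem not_cyc (hp : p.Prime) (oh : h ^ p = 1) (ok : k ^ p = 1) (hc : h * k = k * h) (k1 : k ≠ 1)
    (hd : h ∉ zpowers k) : ¬ IsCyclic (zpowers h ⊔ zpowers k : Subgroup G) := fun hcy => by
  obtain ⟨g, hg⟩ := hcy.exists_generator
  obtain ⟨a, ha⟩ := hg ⟨h, mem_sup_left (mem_zpowers h)⟩
  obtain ⟨b, hb⟩ := hg ⟨k, mem_sup_right (mem_zpowers k)⟩
  have ha' : (g : G) ^ a = h := congrArg Subtype.val ha
  have hb' : (g : G) ^ b = k := congrArg Subtype.val hb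
  have := root hp (pow_E oh ok hc g.2) (a := b) (by rwa [hb'])
  rw [hb'] at this
  exact hd (by rw [← ha']; exact zpow_mem this a)

theorem cop [Finite G] (hp : p.Prime) {E Q : Subgroup G} (hE : IsPGroup p E)
    (hQ : ¬ p ∣ Nat.card Q) : (Nat.card E).Coprime (Nat.card Q) := by
  have : Fact p.Prime := ⟨hp⟩
  obtain ⟨n, hn⟩ := IsPGroup.iff_card.1 hE
  exact hn ▸ Nat.Coprime.pow_left n ((Nat.Prime.coprime_iff_not_dvd hp).2 hQ)

theorem norm_of [Finite G] {Q : Subgroup G} {g : G} (hg : ∀ c ∈ Q, g * c * g⁻¹ ∈ Q) :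
    g ∈ normalizer (Q : Set G) := mem_normalizer_fintype hg

end Sw

open Sw in
theorem swap_false {G : Type*} [Group G] [Finite G] {p : ℕ} (hp : p.Prime) {h k : G}
    (oh : orderOf h = p) (ok : orderOf k = p) (hc : h * k = k * h) (hd : h ∉ zpowers k)
    {Q : Subgroup G} (hQ : Q ≠ ⊥) (hpQ : ¬ p ∣ Nat.card Q)
    (nh : ∀ c ∈ Q, h * c * h⁻¹ ∈ Q) (nk : ∀ c ∈ Q, k * c * k⁻¹ ∈ Q)
    (fh : ∀ c ∈ Q, c * h = h * c → c = 1) (fk : ∀ c ∈ Q, c * k = k * c → c = 1)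
    (faith : ∀ e ∈ zpowers h ⊔ zpowers k, (∀ c ∈ Q, c * e = e * c) → e = 1) (J : Set G)
    (J1 : ∀ j ∈ J, j * h * j⁻¹ ∈ zpowers k) (J2 : ∀ j ∈ J, j * k * j⁻¹ ∈ zpowers h)
    (J3 : ∀ j ∈ J, ∀ j' ∈ J, j * h * j⁻¹ = j' * h * j'⁻¹)
    (J4 : ∀ e ∈ zpowers h ⊔ zpowers k, ∀ c ∈ Q, c ≠ 1 → c * e = e * c →
      ∃ j ∈ J, j * e = e * j) : False := by
  have ph : h ^ p = 1 := oh ▸ pow_orderOf_eq_one h
  have pk : k ^ p = 1 := ok ▸ pow_orderOf_eq_one k
  have k1 : k ≠ 1 := fun e => hp.one_lt.ne (by rw [← ok, e, orderOf_one])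
  have nE : zpowers h ⊔ zpowers k ≤ normalizer (Q : Set G) :=
    sup_le (zpowers_le.2 (norm_of nh)) (zpowers_le.2 (norm_of nk))
  have cE := cop hp (isP_E ph pk hc) hpQ
  have nc := not_cyc hp ph pk hc k1 hd
  have mE : ∀ j ∈ J, h * (j * h * j⁻¹) ∈ zpowers h ⊔ zpowers k := fun j hj =>
    mul_mem (mem_sup_left (mem_zpowers h)) (mem_sup_right (J1 j hj))
  have key : ∀ e ∈ zpowers h ⊔ zpowers k, e ≠ 1 → ∀ j ∈ J, j * e = e * j →
      h * (j * h * j⁻¹) ∈ zpowers e := fun e he e1 j hj hje => by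
    obtain ⟨a, b, rfl⟩ := (mem_E hc).1 he
    have e2 : (j * h * j⁻¹) ^ a * (j * k * j⁻¹) ^ b = h ^ a * k ^ b := by
      rw [conj_zpow, conj_zpow, ← mul_inv_cancel_right (h ^ a * k ^ b) j, ← hje]; group
    have c := comm_E hc (mem_sup_left (zpow_mem_zpowers h a))
      (mem_sup_right (zpow_mem_zpowers k b))
    obtain ⟨i, hi⟩ : (k ^ b)⁻¹ * (j * h * j⁻¹) ^ a ∈ zpowers h := by
      rw [eq_mul_inv_of_mul_eq e2, c, mul_assoc, inv_mul_cancel_left]
      exact mul_mem (zpow_mem_zpowers h a) (inv_mem (zpow_mem (J2 j hj) b))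
    replace hi : h ^ i = _ := hi
    have e3 : h ^ i = 1 := by_contra fun n => hd (zpowers_le.2 (show h ^ i ∈ zpowers k from
      hi ▸ mul_mem (inv_mem (zpow_mem_zpowers k b)) (zpow_mem (J1 j hj) a)) (root hp ph n))
    have e4 : h ^ a * k ^ b = (h * (j * h * j⁻¹)) ^ a := by
      rw [inv_mul_eq_one.1 (hi.symm.trans e3)]
      exact ((show Commute _ _ from comm_E hc (mem_sup_left (mem_zpowers h))
        (mem_sup_right (J1 j hj))).mul_zpow a).symm
    rw [e4] at e1 ⊢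
    exact root hp (pow_E ph pk hc (mE j hj)) e1
  obtain ⟨e, he, -, h1⟩ := H2.exists_inf_centralizer_ne_bot (isComm_E hc) nc nE cE hQ
  obtain ⟨⟨c, hcQ, hce⟩, c1⟩ := ne_bot_iff_exists_ne_one.1 h1
  obtain ⟨j, hj, -⟩ := J4 e he c hcQ (fun e => c1 (Subtype.ext e))
    (mem_centralizer_singleton_iff.1 hce)
  have := H2.le_of_forall_centralizer_le (M := centralizer {h * (j * h * j⁻¹)}) (isComm_E hc) nc nE
    cE fun e he e1 c hc' => by
      by_cases c1 : c = 1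
      · exact c1 ▸ one_mem _
      have ce := mem_centralizer_singleton_iff.1 hc'.2
      obtain ⟨j', hj', h2⟩ := J4 e he c hc'.1 c1 ce
      obtain ⟨i, hi⟩ := key e he e1 j' hj' h2
      rw [J3 j hj j' hj', ← hi]
      exact mem_centralizer_singleton_iff.2 (Commute.zpow_right ce i)
  have h2 := faith _ (mE j hj) fun c hc' => mem_centralizer_singleton_iff.1 (this hc')
  exact hd (by rw [eq_inv_of_mul_eq_one_left h2]; exact inv_mem (J1 j hj))

end H97.ONT
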