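import Mathlib

/-! A transfer into a point stabiliser. -/

set_option autoImplicit false

namespace H97.ONT

open Subgroup

/-- Transfer into `G_x / M` when all two point stabilisers lie in `M`. -/
theorem transfer {G X : Type*} [Group G] [Finite G] [MulAction G X] (x : X)
    (tr : ∀ y : X, ∃ g : G, g • x = y) (M : Subgroup G) (hM : ∀ m ∈ M, m • x = x)
    (hc : ∀ g g' : G, g • x = x → g' • x = x → g * g' * g⁻¹ * g'⁻¹ ∈ M)
    (h2 : ∀ g : G, g • x = x → ∀ y : X, y ≠ x → g • y = y → g ∈ M) :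
    ∃ G₀ : Subgroup G, G₀.Normal ∧ ∀ g : G, g • x = x → (g ∈ G₀ ↔ g ∈ M) := by
  classical
  let S := MulAction.stabilizer G x
  have hn : (M.subgroupOf S).Normal := ⟨fun m hm g => by
    have := mul_mem (hc g m g.2 m.2) hm
    rw [mem_subgroupOf]
    simpa using this⟩
  let _ : CommGroup (S ⧸ M.subgroupOf S) :=
    { (inferInstance : Group (S ⧸ M.subgroupOf S)) with
      mul_comm := by
        rintro ⟨a⟩ ⟨b⟩
        refine QuotientGroup.eq.2 (mem_subgroupOf.2 ?_)
        simpa [mul_assoc] using hc _ _ b⁻¹.2 a⁻¹.2 }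
  let φ : S →* S ⧸ M.subgroupOf S := QuotientGroup.mk' _
  refine ⟨(MonoidHom.transfer φ).ker, inferInstance, fun g hg => ?_⟩
  have := Fintype.ofFinite (Quotient (MulAction.orbitRel (zpowers g) (G ⧸ S)))
  have one : ∀ s ∈ S, ((s : G) : G ⧸ S) = ((1 : G) : G ⧸ S) := fun s hs =>
    QuotientGroup.eq.2 (by simpa using inv_mem hs)
  rw [MonoidHom.mem_ker, MonoidHom.transfer_eq_prod_quotient_orbitRel_zpowers_quot,
    Finset.prod_eq_single (Quotient.mk _ ((1 : G) : G ⧸ S))]
  · generalize hq : (Quotient.mk (MulAction.orbitRel (zpowers g) (G ⧸ S)) ((1 : G) : G ⧸ S)).out = q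
    have e : q = ((1 : G) : G ⧸ S) := by
      obtain ⟨s, hs⟩ := Quotient.mk_out (s := MulAction.orbitRel (zpowers g) (G ⧸ S)) ((1 : G) : G ⧸ S)
      rw [← hq, ← hs]
      exact one ((s : G) * 1) (by rw [mul_one]; exact (zpowers_le.2 hg : zpowers g ≤ S) s.2)
    have m : q.out ∈ S := by
      have := QuotientGroup.eq.1 (e.symm.trans q.out_eq.symm)
      simpa using this
    have p : Function.minimalPeriod (g • ·) q = 1 := Function.minimalPeriod_eq_one_iff_isFixedPt.2 (by
      rw [e]; exact one (g * 1) (by rw [mul_one]; exact hg))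
    rw [show (⟨_, QuotientGroup.out_conj_pow_minimalPeriod_mem S g q⟩ : S) =
      ⟨q.out, m⟩⁻¹ * ⟨g, hg⟩ * ⟨q.out, m⟩ from Subtype.ext (by simp [p]), map_mul, map_mul, map_inv,
      inv_mul_cancel_comm]
    exact (QuotientGroup.eq_one_iff _).trans mem_subgroupOf
  · intro q _ hq
    refine (QuotientGroup.eq_one_iff _).2 (mem_subgroupOf.2 (h2 _
      (QuotientGroup.out_conj_pow_minimalPeriod_mem S g q.out) (q.out.out⁻¹ • x) (fun e => hq ?_) ?_))
    · rw [← q.out_eq, ← q.out.out_eq]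
      exact congrArg _ (one _ (inv_mem_iff.1 (show q.out.out⁻¹ ∈ S from e)))
    · show (_ * _ * _) • _ = _
      rw [mul_smul, mul_smul, smul_inv_smul, (pow_mem (show g ∈ S from hg) _ :)]
  · exact fun h => absurd (Finset.mem_univ _) h

end H97.ONT
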