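import Cfsg.Agent.Lib.ONT.Tw1

set_option autoImplicit false

namespace H97.ONT.Tw

open Subgroup

variable {G : Type*} [Group G] [Finite G] {W : Tw G}

/-- The conjugate `s E s⁻¹`. -/
def cE (W : Tw G) (s : G) : Subgroup G := W.E.map (MulAut.conj s).toMonoidHom

omit [Finite G] in
theorem mem_cE {s a : G} : a ∈ W.cE s ↔ s⁻¹ * a * s ∈ W.E := by
  constructor
  · rintro ⟨e, he, rfl⟩
    simpa [mul_assoc] using he
  · intro h
    exact ⟨_, h, by simp [mul_assoc]⟩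

omit [Finite G] in
theorem cj_mem_cE {s e : G} (he : e ∈ W.E) : s * e * s⁻¹ ∈ W.cE s := ⟨e, he, rfl⟩

omit [Finite G] in
theorem card_cE (s : G) : Nat.card (W.cE s) = Nat.card W.E :=
  card_map_of_injective (MulAut.conj s).injective

omit [Finite G] in
theorem El.cE (e : W.El) (s : G) : ∀ a ∈ W.cE s, a * a = 1 := by
  rintro _ ⟨x, hx, rfl⟩
  rw [← map_mul, e.E hx, map_one]

theorem mem_R_of_cE {s : G} (hs : s ∈ W.S) (h : W.cE s = W.E) : s ∈ W.R :=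
  mem_R.2 ⟨hs, fun _ ha => h ▸ cj_mem_cE ha⟩

variable {g : G}

omit [Finite G] in
theorem Gm.cE_le (h : W.Gm g) : W.cE g ≤ W.R ⊔ W.U := by
  rintro _ ⟨e, he, rfl⟩
  exact h.nrm e (W.E_le_RU he)

theorem Gm.cE_ne (h : W.Gm g) : W.cE g ≠ W.E := fun e => h.not (mem_R_of_cE h.mem e)

theorem Gm.second (h : W.Gm g) (e : W.El) :
    W.cE g ⊓ W.E = W.T ∧ ∀ v ∈ W.R ⊔ W.U, v * v = 1 → v ∈ W.E ∨ v ∈ W.cE g :=
  e.second h.cE_le (e.cE g) (card_cE g) h.cE_ne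

omit [Finite G] in
theorem Gm.memN (h : W.Gm g) : g ∈ W.N := W.S_le h.mem

omit [Finite G] in
theorem Gm.cj_R (h : W.Gm g) {r : G} (hr : r ∈ W.R) : g * r * g⁻¹ ∈ W.R :=
  mem_of_sup_U U_R' W.R_le_N (h.nrm r (mem_sup_left hr))
    (mul_mem (mul_mem h.memN (W.R_le_N hr)) (inv_mem h.memN))

theorem Gm.cj_T (h : W.Gm g) (e : W.El) {t : G} (ht : t ∈ W.T) : g * t * g⁻¹ ∈ W.T := by
  have h1 : g⁻¹ ∈ normalizer (W.T : Set G) := mem_normalizer_fintype fun t ht => by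
    rw [inv_inv]
    exact mem_T_of_E (mem_cE.1 ((h.second e).1.ge ht).1)
      (mul_mem (mul_mem (inv_mem h.memN) (W.T_le_N ht)) h.memN)
  exact (mem_normalizer_iff.1 (inv_mem_iff.1 h1) t).1 ht

omit [Finite G] in
theorem Gm.ph_N (h : W.Gm g) {k : G} (hk : k ∈ W.U) : ph g k ∈ W.N := by
  have : ph g k = g * (k * g⁻¹ * k⁻¹) := by unfold ph; group
  rw [this]
  exact mul_mem h.memN (W.U_N k hk _ (inv_mem h.memN))

omit [Finite G] in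
theorem Gm.ph_mem (h : W.Gm g) {k : G} (hk : k ∈ W.U) : ph g k ∈ W.R :=
  mem_of_sup_U U_R' W.R_le_N (mul_mem (h.nrm k (mem_sup_right hk)) (inv_mem (mem_sup_right hk)))
    (h.ph_N hk)

theorem Gm.eq_one_of_E (h : W.Gm g) (e : W.El) {k : G} (hk : k ∈ W.U) (hE : g * k * g⁻¹ ∈ W.E) :
    k = 1 := by
  have h1 := W.T_le_N ((h.second e).1.le ⟨cj_mem_cE (W.U_le_E hk), hE⟩)
  refine W.disj k hk ?_
  have := mul_mem (mul_mem (inv_mem h.memN) h1) h.memN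
  simpa [mul_assoc] using this

theorem Gm.ph_not (h : W.Gm g) (e : W.El) {k : G} (hk : k ∈ W.U) (k1 : k ≠ 1) :
    ph g k ∉ W.T := fun ht => k1 (h.eq_one_of_E e hk (by
  have := mul_mem (W.T_le_E ht) (W.U_le_E hk)
  unfold ph at this
  rwa [inv_mul_cancel_right] at this))

omit [Finite G] in
theorem Gm.ph_sq (h : W.Gm g) (e : W.El) {k : G} (hk : k ∈ W.U) :
    ph g k * k * (ph g k * k) = 1 := by
  have _ := h
  have : ph g k * k * (ph g k * k) = g * (k * k) * g⁻¹ := by unfold ph; group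
  rw [this, e.U hk]; group

theorem Gm.dec (h : W.Gm g) (e : W.El) {r : G} (hr : r ∈ W.R) :
    ∃ k ∈ W.U, ∃ t ∈ W.T, r = ph g k * t := by
  have hi : Function.Injective fun k : W.U =>
      (QuotientGroup.mk ⟨ph g k, h.ph_mem k.2⟩ : W.R ⧸ W.T.subgroupOf W.R) := by
    intro k k' hk
    have h1 : (ph g k)⁻¹ * ph g k' ∈ W.T := mem_subgroupOf.1 (QuotientGroup.eq.1 hk)
    have h2 : g * ((k : G)⁻¹ * k') * g⁻¹ = (k : G)⁻¹ * ((ph g k)⁻¹ * ph g k') * k' := by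
      unfold ph; group
    refine Subtype.ext (inv_mul_eq_one.1 (h.eq_one_of_E e (mul_mem (inv_mem k.2) k'.2) ?_))
    rw [h2]
    exact mul_mem (mul_mem (inv_mem (W.U_le_E k.2)) (W.T_le_E h1)) (W.U_le_E k'.2)
  have h2 := H1.card_mul_relIndex_of_le W.T_le_R
  rw [h.card_R] at h2
  have h3 := Nat.eq_of_mul_eq_mul_left (Nat.card_pos (α := W.T)) h2
  obtain ⟨k, hk⟩ := (hi.bijective_of_nat_card_le (h3.trans W.card_U.symm).le).2
    (QuotientGroup.mk ⟨r, hr⟩)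
  exact ⟨k, k.2, (ph g k)⁻¹ * r, mem_subgroupOf.1 (QuotientGroup.eq.1 hk), by group⟩

theorem Gm.omega (h : W.Gm g) (e : W.El) {r : G} (hr : r ∈ W.R) (h2 : r * r = 1) :
    r ∈ W.T := by
  obtain ⟨k, hk, t, ht, rfl⟩ := h.dec e hr
  by_cases k1 : k = 1
  · subst k1
    have : ph g 1 = 1 := by unfold ph; group
    rw [this, one_mul]; exact ht
  · exfalso
    refine k1 (ph_eq_one (h.ph_mem hk) (h.ph_not e hk k1) hk ?_)
    rw [(e.sq_iff (h.ph_mem hk) hk).1 (h.ph_sq e hk)]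
    have e1 : ph g k * t * (ph g k * t) = ph g k * (t * ph g k) * t := by group
    rw [e1, ← e.comm (h.ph_mem hk) ht, mul_assoc, mul_assoc, e t ht, mul_one] at h2
    exact h2

omit [Finite G] in
theorem Gm.cj_ph (h : W.Gm g) {k : G} (hk : k ∈ W.U) :
    g * ph g k * g⁻¹ = ph (g * g) k * (ph g k)⁻¹ := by
  have _ := h
  have _ := hk
  unfold ph; group

theorem Gm.mem_cE (h : W.Gm g) (e : W.El) {r k : G} (hr : r ∈ W.R) (hk : k ∈ W.U) (r1 : r ∉ W.T)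
    (h2 : r * k * (r * k) = 1) : r * k ∈ W.cE g :=
  ((h.second e).2 _ (mul_mem (mem_sup_left hr) (mem_sup_right hk)) h2).resolve_left fun hE =>
    r1 (mem_T_of_E ((Subgroup.mul_mem_cancel_right _ (W.U_le_E hk)).1 hE) (W.R_le_N hr))

theorem Gm.eq_ph (h : W.Gm g) (e : W.El) {r k : G} (hr : r ∈ W.R) (hk : k ∈ W.U) (r1 : r ∉ W.T)
    (h2 : r * k * (r * k) = 1) : ∃ t ∈ W.T, r = t * ph g k := by
  obtain ⟨x, hx, e1⟩ := h.mem_cE e hr hk r1 h2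
  obtain ⟨t, ht, k0, hk0, rfl⟩ := mem_E.1 hx
  have e2 : g * (t * k0) * g⁻¹ = r * k := e1
  have e3 : k * k0⁻¹ = r⁻¹ * (g * t * g⁻¹) * ph g k0 := by
    rw [eq_inv_mul_iff_mul_eq.2 e2.symm]; unfold ph; group
  have e4 : k = k0 := mul_inv_eq_one.1 (W.disj _ (mul_mem hk (inv_mem hk0)) (by
    rw [e3]
    exact mul_mem (mul_mem (inv_mem (W.R_le_N hr)) (W.T_le_N (h.cj_T e ht))) (h.ph_N hk0)))
  subst e4
  refine ⟨_, h.cj_T e ht, ?_⟩
  rw [eq_mul_inv_iff_mul_eq.2 e2.symm]; unfold ph; group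

/-- `g` acts trivially on `R / T`. -/
theorem Gm.cj_mod (h : W.Gm g) (e : W.El) {r : G} (hr : r ∈ W.R) :
    ∃ t ∈ W.T, g * r * g⁻¹ = r * t := by
  obtain ⟨k, hk, t, ht, rfl⟩ := h.dec e hr
  refine ⟨(ph g k * t)⁻¹ * (g * (ph g k * t) * g⁻¹), ?_, by group⟩
  have e1 : (ph g k * t)⁻¹ * (g * (ph g k * t) * g⁻¹) =
      t⁻¹ * ((ph g k)⁻¹ * (g * ph g k * g⁻¹)) * (g * t * g⁻¹) := by group
  rw [e1, h.cj_ph hk, ← e.comm (inv_mem (h.ph_mem hk)) (Tw.ph_mem h.sq hk),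
    ← mul_assoc (ph g k)⁻¹]
  exact mul_mem (mul_mem (inv_mem ht) (mul_mem (sq_mem (inv_mem (h.ph_mem hk)))
    (Tw.ph_mem h.sq hk))) (h.cj_T e ht)

theorem Gm.act (h : W.Gm g) (e : W.El) {r r' k k' : G} (hr : r ∈ W.R) (hr' : r' ∈ W.R)
    (hk : k ∈ W.U) (hk' : k' ∈ W.U) (r1 : r ∉ W.T) (r1' : r' ∉ W.T) (h2 : r * k * (r * k) = 1)
    (h2' : r' * k' * (r' * k') = 1) :
    g * ph r k' * g⁻¹ = ph r' k ∧ r * r' * r⁻¹ * r'⁻¹ = ph r k' * ph r' k := by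
  have ha := Tw.ph_mem hr hk'
  have hb := Tw.ph_mem hr' hk
  have c1 := comm_of_sq (e.cE g) (h.mem_cE e hr hk r1 h2) (h.mem_cE e hr' hk' r1' h2')
  have e2 : r * r' * r⁻¹ * r'⁻¹ = ph r k' * ph r' k := by
    have f1 : r * k * (r' * k') = r * (ph r' k)⁻¹ * r' * (k * k') := by unfold ph; group
    have f2 : r' * k' * (r * k) = r' * (ph r k')⁻¹ * r * (k' * k) := by unfold ph; group
    rw [f1, f2, U_comm hk hk', e.comm hr (inv_mem hb), e.comm hr' (inv_mem ha),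
      inv_eq_of_mul_eq_one_right (e _ ha), inv_eq_of_mul_eq_one_right (e _ hb)] at c1
    have f3 := mul_right_cancel c1
    have f4 : r * r' * r⁻¹ * r'⁻¹ = (ph r' k)⁻¹ * (ph r' k * r * r') * r⁻¹ * r'⁻¹ := by group
    rw [f4, f3, inv_eq_of_mul_eq_one_right (e _ hb), ← T_comm hb ha]
    group
  refine ⟨?_, e2⟩
  obtain ⟨t, ht, e3⟩ := h.cj_mod e hr
  obtain ⟨t', ht', e4⟩ := h.eq_ph e hr' hk' r1' h2'
  have e5 : g * k' * g⁻¹ = t'⁻¹ * (r' * k') := by rw [e4]; unfold ph; group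
  have f1 : g * ph r k' * g⁻¹ =
      (g * r * g⁻¹) * (g * k' * g⁻¹) * (g * r * g⁻¹)⁻¹ * (g * k' * g⁻¹)⁻¹ := by
    unfold ph; group
  have c2 : Commute t (t'⁻¹ * (r' * k')) :=
    Commute.mul_right (T_comm ht (inv_mem ht'))
      (Commute.mul_right (e.comm hr' ht).symm (W.comm t ht k' hk'))
  have f2 : r * t * (t'⁻¹ * (r' * k')) * (r * t)⁻¹ = r * (t'⁻¹ * (r' * k')) * r⁻¹ := by
    rw [mul_assoc r, c2.eq]; group
  have f3 : r * (t'⁻¹ * (r' * k')) * r⁻¹ * (t'⁻¹ * (r' * k'))⁻¹ =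
      (r * t'⁻¹) * r⁻¹ * (r * r' * r⁻¹ * r'⁻¹) * (r' * ph r k') * r'⁻¹ * t' := by
    unfold ph; group
  rw [f1, e3, e5, f2, f3, e2, e.comm hr (inv_mem ht'), e.comm hr' ha, T_comm ha hb]
  have f4 : t'⁻¹ * r * r⁻¹ * (ph r' k * ph r k') * (ph r k' * r') * r'⁻¹ * t' =
      t'⁻¹ * (ph r' k * (ph r k' * ph r k') * t') := by group
  rw [f4, e _ ha, mul_one, T_comm hb ht', inv_mul_cancel_left]

theorem Gm.cases_of_le (h : W.Gm g) (e : W.El) {s : G} (hs : s ∈ W.S)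
    (hle : W.cE s ≤ W.R ⊔ W.U) : s ∈ W.R ∨ g⁻¹ * s ∈ W.R := by
  by_cases h1 : W.cE s = W.E
  · exact Or.inl (mem_R_of_cE hs h1)
  · have h2 := e.uniq hle h.cE_le (e.cE s) (e.cE g) (card_cE s) (card_cE g) h1 h.cE_ne
    refine Or.inr (mem_R.2 ⟨mul_mem (inv_mem h.mem) hs, fun a ha => ?_⟩)
    have := Tw.mem_cE.1 (h2 ▸ cj_mem_cE (s := s) ha)
    simpa [mul_assoc] using this

theorem Gm.cases (h : W.Gm g) (e : W.El) (h4 : 4 ≤ Nat.card W.T) {s : G} (hs : s ∈ W.S) :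
    s ∈ W.R ∨ g⁻¹ * s ∈ W.R := by
  classical
  set Q : Subgroup G := normalizer ((W.R ⊔ W.U : Subgroup G) : Set G) with hQ
  have RQ : W.R ⊔ W.U ≤ Q := le_normalizer
  have gQ : g ∈ Q := mem_normalizer_fintype h.nrm
  have c1 : ∀ s ∈ W.S ⊓ Q, s ∈ W.R ∨ g⁻¹ * s ∈ W.R := fun s hs => h.cases_of_le e hs.1 (by
    rintro _ ⟨x, hx, rfl⟩
    exact (mem_normalizer_iff.1 hs.2 x).1 (W.E_le_RU hx))
  by_contra hcon
  have hU : ∀ k ∈ W.U, ∀ v ∈ W.S ⊓ Q, k * v * k⁻¹ ∈ W.S ⊓ Q := fun k hk v hv =>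
    ⟨W.U_S k hk v hv.1, Q.mul_mem (Q.mul_mem (RQ (mem_sup_right hk)) hv.2)
      (Q.inv_mem (RQ (mem_sup_right hk)))⟩
  have hN : W.S ⊓ Q ≤ W.N := inf_le_left.trans W.S_le
  have hne : (W.S ⊓ Q) ⊔ W.U ≠ W.S ⊔ W.U := fun e => hcon (c1 s
    (mem_of_sup_U hU hN (e ▸ mem_sup_left hs) (W.S_le hs)))
  obtain ⟨x, hx, x1, hn⟩ := exists_norm_of_lt (p_sup_U W.U_S W.pS)
    (sup_le_sup_right inf_le_left W.U) hne
  obtain ⟨u, hu, k, hk, rfl⟩ := (mem_sup_U W.U_S).1 hx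
  have hE : W.cE u ≤ (W.S ⊓ Q) ⊔ W.U := by
    rintro _ ⟨y, hy, rfl⟩
    have := hn (k⁻¹ * y * k) ((sup_le_sup_right (le_inf W.T_le
      (W.T_le_E.trans (W.E_le_RU.trans RQ))) W.U : W.E ≤ _)
      (mul_mem (mul_mem (inv_mem (W.U_le_E hk)) hy) (W.U_le_E hk)))
    simpa [mul_assoc] using this
  have c2 : ∀ v ∈ W.cE u, v ∈ W.R ⊔ W.U ∨ g⁻¹ * v ∈ W.R ⊔ W.U := fun v hv => by
    obtain ⟨a, ha, k', hk', rfl⟩ := (mem_sup_U hU).1 (hE hv)
    rcases c1 a ha with h1 | h1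
    · exact Or.inl (mul_mem (mem_sup_left h1) (mem_sup_right hk'))
    · exact Or.inr (by rw [← mul_assoc]; exact mul_mem (mem_sup_left h1) (mem_sup_right hk'))
  have hnle : ¬ W.cE u ≤ W.R ⊔ W.U := fun hle => x1 (mul_mem (mem_sup_left ⟨hu, by
    rcases h.cases_of_le e hu hle with h1 | h1
    · exact RQ (mem_sup_left h1)
    · exact (Q.mul_mem_cancel_left (Q.inv_mem gQ)).1 (RQ (mem_sup_left h1))⟩) (mem_sup_right hk))
  obtain ⟨v, hv, v1⟩ := SetLike.not_le_iff_exists.1 hnle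
  have hv' := (c2 v hv).resolve_left v1
  have hB : (W.R ⊔ W.U) ⊓ W.cE u ≤ W.T := by
    intro b hb
    have cb := comm_of_sq (e.cE u) hv hb.2
    have key : b ∈ W.cE g ↔ b ∈ W.E := by
      have e1 : b = (g⁻¹ * v)⁻¹ * (g⁻¹ * b * g) * (g⁻¹ * v)⁻¹⁻¹ := by
        calc b = v⁻¹ * (v * b) := by group
          _ = _ := by rw [cb]; group
      rw [Tw.mem_cE, mem_normalizer_iff.1 (W.RU_norm (inv_mem hv')) (g⁻¹ * b * g), ← e1]
    rcases (h.second e).2 b hb.1 (e.cE u b hb.2) with h1 | h1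
    · exact (h.second e).1.le ⟨key.2 h1, h1⟩
    · exact (h.second e).1.le ⟨h1, key.1 h1⟩
  have h1 : (W.R ⊔ W.U).relIndex (W.cE u) ≤ Nat.card Bool := by
    refine relIndex_le_of_fib (fun v => decide ((v : G) ∈ W.R ⊔ W.U)) fun a b e => ?_
    have e' : (a : G) ∈ W.R ⊔ W.U ↔ (b : G) ∈ W.R ⊔ W.U := by simpa using e
    by_cases ha : (a : G) ∈ W.R ⊔ W.U
    · exact mul_mem (inv_mem ha) (e'.1 ha)
    · have := mul_mem (inv_mem ((c2 a a.2).resolve_left ha))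
        ((c2 b b.2).resolve_left fun h => ha (e'.2 h))
      simpa [mul_assoc] using this
  have h2 := H1.card_inf_mul_relIndex (W.R ⊔ W.U) (W.cE u)
  have h3 := card_le_of_le hB
  rw [card_cE, W.card_E] at h2
  simp only [Nat.card_eq_fintype_card, Fintype.card_bool] at h1
  have h5 := Nat.mul_le_mul h3 h1
  rw [h2] at h5
  have := Nat.le_of_mul_le_mul_left h5 (by omega)
  omega

end H97.ONT.Tw
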